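import Cfsg.Agent.H315.HT.Lin
import Mathlib.RingTheory.Coprime.Basic
import Mathlib.Algebra.Polynomial.AlgebraMap

/-!
# S2452, `²F₄(8)` : the linear part of the Hecke algebra of the dihedral group of order 16 (helper315)

`A² = (a-1) A + a`, `B² = (b-1) B + b`, `(AB)⁴ = (BA)⁴`, `z = AB + (B-(b-1))(A-(a-1))` central, `Y = AB - BA`:
`Y² = (z-1-ab)(z+a+b)`, `(z³-2abz) Y = 0`, `2A-(a-1)` anticommutes with `Y`.
-/

set_option autoImplicit false
set_option linter.unusedSectionVars false

namespace Cfsg.Agent.H315.TF8

open Cfsg.Agent.LieRecognition.FeitHigmanGroup Cfsg.Agent.H315.HT Polynomial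

variable {M : Type*} [Ring M] [Algebra ℝ M] {A B : M} {a b : ℝ}

/-- the central element -/
def zc (A B : M) (a b : ℝ) : M := A * B + B * A - (a - 1) • B - (b - 1) • A + ((a - 1) * (b - 1)) • (1 : M)

/-- the commutator -/
def Yc (A B : M) : M := A * B - B * A

section rel

variable (hA : A * A = (a - 1) • A + a • (1 : M)) (hB : B * B = (b - 1) • B + b • (1 : M))

include hA in
theorem AAB : A * (A * B) = (a - 1) • (A * B) + a • B := by
  rw [← mul_assoc, hA, add_mul, smul_mul_assoc, smul_mul_assoc, one_mul]

include hA in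
theorem BAA : B * A * A = (a - 1) • (B * A) + a • B := by
  rw [mul_assoc, hA, mul_add, mul_smul_comm, mul_smul_comm, mul_one]

include hA in
theorem zc_A : A * zc A B a b = zc A B a b * A := by
  have h1 := AAB (B := B) hA
  have h2 := BAA (B := B) hA
  have h3 : A * (B * A) = A * B * A := (mul_assoc _ _ _).symm
  unfold zc
  simp only [mul_add, add_mul, mul_sub, sub_mul, smul_mul_assoc, mul_smul_comm, mul_one, one_mul, h1, h2, h3, hA]
  module

theorem zc_swap : zc A B a b = zc B A b a := by
  unfold zc
  module

include hB in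
theorem zc_B : B * zc A B a b = zc A B a b * B := by
  rw [zc_swap]
  exact zc_A hB

include hA in
/-- `z A = A B A + ...` -/
theorem ABA : A * B * A = zc A B a b * A - a • B + (a * (b - 1)) • (1 : M) := by
  have h2 := BAA (B := B) hA
  unfold zc
  simp only [add_mul, sub_mul, smul_mul_assoc, one_mul, h2, hA]
  module

include hA hB in
theorem w_sq : (A * B) * (A * B) = zc A B a b * (A * B) - (a * b) • (1 : M) := by
  have h1 := AAB (B := B) hA
  have h2 : B * A * (A * B) = (a - 1) • (B * (A * B)) + a • (B * B) := by
    rw [mul_assoc, h1, mul_add, mul_smul_comm, mul_smul_comm]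
  unfold zc
  simp only [add_mul, sub_mul, smul_mul_assoc, one_mul, h1, h2, hB]
  module

include hA hB in
theorem w_sq' : (B * A) * (B * A) = zc A B a b * (B * A) - (a * b) • (1 : M) := by
  rw [zc_swap, mul_comm a b]
  exact w_sq hB hA

theorem four {w z : M} {n : ℝ} (hz : w * z = z * w) (h : w * w = z * w - n • (1 : M)) :
    (w * w) * (w * w) = (z * z * z - (2 * n) • z) * w - n • (z * z) + (n * n) • (1 : M) := by
  have h1 : z * w * (z * w) = z * z * (w * w) := by
    calc z * w * (z * w) = z * (w * z) * w := by simp only [mul_assoc]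
      _ = z * (z * w) * w := by rw [hz]
      _ = z * z * (w * w) := by simp only [mul_assoc]
  calc (w * w) * (w * w) = z * w * (z * w) - (2 * n) • (z * w) + (n * n) • (1 : M) := by
        rw [h]
        simp only [sub_mul, mul_sub, smul_mul_assoc, mul_smul_comm, mul_one, one_mul]
        module
    _ = _ := by
        rw [h1, h]
        simp only [sub_mul, mul_sub, smul_mul_assoc, mul_smul_comm, mul_one, one_mul, mul_assoc]
        module

theorem alt_eight (A B : M) : alt 8 A B = (A * B) * (A * B) * ((A * B) * (A * B)) := by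
  have e : alt 8 A B = A * (B * (A * (B * (A * (B * (A * (B * 1))))))) := rfl
  rw [e]
  simp only [mul_assoc, mul_one]

include hA hB in
theorem p_Y (hbr : alt 8 A B = alt 8 B A) :
    (zc A B a b * zc A B a b * zc A B a b - (2 * (a * b)) • zc A B a b) * Yc A B = 0 := by
  have hzA := zc_A (B := B) (b := b) hA
  have hzB := zc_B (A := A) (a := a) hB
  set z := zc A B a b with hz
  have h1 : A * B * z = z * (A * B) := by rw [mul_assoc, hzB, ← mul_assoc, hzA, mul_assoc]
  have h2 : B * A * z = z * (B * A) := by rw [mul_assoc, hzA, ← mul_assoc, hzB, mul_assoc]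
  have h3 := four h1 (w_sq hA hB)
  have h4 := four h2 (w_sq' hA hB)
  rw [alt_eight, alt_eight, h3, h4] at hbr
  unfold Yc
  rw [mul_sub]
  have h5 : ∀ x y c : M, x - c + (a * b * (a * b)) • (1 : M) = y - c + (a * b * (a * b)) • (1 : M) → x - y = 0 := by
    intro x y c h
    have : x = y := by
      have h6 := add_right_cancel h
      exact sub_left_injective h6
    rw [this, sub_self]
  exact h5 _ _ _ hbr

include hA hB in
theorem Y_sq : Yc A B * Yc A B = (zc A B a b - (1 + a * b) • (1 : M)) * (zc A B a b + (a + b) • (1 : M)) := by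
  have hzA := zc_A (B := B) (b := b) hA
  have hzB := zc_B (A := A) (a := a) hB
  have hw := w_sq hA hB
  have hw' := w_sq' hA hB
  have hABA : A * B * A = zc A B a b * A - a • B + (a * (b - 1)) • (1 : M) := ABA hA
  have hBAB : B * A * B = zc A B a b * B - b • A + (b * (a - 1)) • (1 : M) := by
    rw [zc_swap]
    exact ABA hB
  have hsum : A * B + B * A = zc A B a b + (a - 1) • B + (b - 1) • A - ((a - 1) * (b - 1)) • (1 : M) := by
    unfold zc
    module
  have e1 : A * B * (B * A) = (b - 1) • (A * B * A) + b • (A * A) := by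
    calc A * B * (B * A) = A * (B * B) * A := by simp only [mul_assoc]
      _ = _ := by
        rw [hB]
        simp only [mul_add, add_mul, mul_smul_comm, smul_mul_assoc, mul_one]
  have e2 : B * A * (A * B) = (a - 1) • (B * A * B) + a • (B * B) := by
    calc B * A * (A * B) = B * (A * A) * B := by simp only [mul_assoc]
      _ = _ := by
        rw [hA]
        simp only [mul_add, add_mul, mul_smul_comm, smul_mul_assoc, mul_one]
  set z := zc A B a b with hz
  have e3 : Yc A B * Yc A B = z * (A * B + B * A) - (2 * (a * b)) • (1 : M) - A * B * (B * A) - B * A * (A * B) := by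
    unfold Yc
    rw [sub_mul, mul_sub, mul_sub, hw, hw', mul_add]
    module
  rw [e3, hsum, e1, e2, hABA, hBAB, hA, hB]
  simp only [mul_add, mul_sub, add_mul, sub_mul, mul_smul_comm, smul_mul_assoc, mul_one, one_mul]
  module

include hA in
/-- `2A - (a-1)` anticommutes with the commutator -/
theorem anti : ((2 : ℝ) • A + (1 - a) • (1 : M)) * Yc A B = - (Yc A B * ((2 : ℝ) • A + (1 - a) • (1 : M))) := by
  have h1 := AAB (B := B) hA
  have h2 := BAA (B := B) hA
  have h3 : A * (B * A) = A * B * A := (mul_assoc _ _ _).symm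
  unfold Yc
  simp only [add_mul, mul_add, mul_sub, sub_mul, smul_mul_assoc, mul_smul_comm, mul_one, one_mul, h1, h2, h3]
  module

end rel

end Cfsg.Agent.H315.TF8
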