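import Cfsg.Agent.H315.TF8.Alg

/-!
# S2452, `²F₄(8)` : the four idempotents of the linear part (helper315)

`exists_idem` : with `φ` a trace on the algebra generated by `A`, `B`: `φ((2A-(a-1))/(1+a)) = φ(e₁) + φ(e₂) - φ(e₃) - φ(e₄)`,
`eᵢ` idempotents with `A eᵢ = αᵢ eᵢ`, `B eᵢ = βᵢ eᵢ`, `(α, β) = (a,b), (a,-1), (-1,b), (-1,-1)`.
-/

set_option autoImplicit false
set_option linter.unusedSectionVars false

namespace Cfsg.Agent.H315.TF8

open Cfsg.Agent.LieRecognition.FeitHigmanGroup Cfsg.Agent.H315.HT Polynomial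

variable {M : Type*} [Ring M] [Algebra ℝ M] {A B : M} {a b : ℝ}

theorem comm_aeval {z : M} (h : A * z = z * A) (p : ℝ[X]) : A * aeval z p = aeval z p * A := by
  induction p using Polynomial.induction_on' with
  | add p q hp hq => rw [map_add, mul_add, add_mul, hp, hq]
  | monomial n r =>
    rw [aeval_monomial, Algebra.algebraMap_eq_smul_one, smul_mul_assoc, one_mul, mul_smul_comm, smul_mul_assoc]
    congr 1
    exact (Commute.pow_right (show Commute A z from h) n).eq

/-- the polynomials -/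
noncomputable def pp (a b : ℝ) : ℝ[X] := X * (X ^ 2 - C (2 * (a * b)))
noncomputable def ff (a b : ℝ) : ℝ[X] := (X - C (1 + a * b)) * (X - C (-(a + b)))

theorem coprime_pf (ha : 1 < a) (hb : 1 < b) : IsCoprime (pp a b) (ff a b) := by
  unfold ff
  have key : ∀ u : ℝ, (pp a b).eval u ≠ 0 → IsCoprime (pp a b) (X - C u) := by
    intro u hu
    refine ((irreducible_X_sub_C u).coprime_iff_not_dvd.2 fun h => ?_).symm
    exact hu (dvd_iff_isRoot.1 h)
  have hev : ∀ u : ℝ, (pp a b).eval u = u * (u ^ 2 - 2 * (a * b)) := by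
    intro u
    unfold pp
    simp
  refine IsCoprime.mul_right (key _ ?_) (key _ ?_)
  · rw [hev]
    have h1 : 0 < a * b := by positivity
    have h2 : (1 + a * b) ^ 2 - 2 * (a * b) = 1 + (a * b) ^ 2 := by ring
    rw [h2]
    positivity
  · rw [hev]
    have h2 : (-(a + b)) ^ 2 - 2 * (a * b) = a ^ 2 + b ^ 2 := by ring
    rw [h2]
    have : 0 < a + b := by linarith
    have h3 : 0 < a ^ 2 + b ^ 2 := by positivity
    exact mul_ne_zero (neg_ne_zero.2 this.ne') h3.ne'

/-- the relation of an idempotent -/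
structure Eig (A B e : M) (α β : ℝ) : Prop where
  hA : A * e = α • e
  hB : B * e = β • e
  hA' : e * A = α • e
  hB' : e * B = β • e
  sq : e * e = e

variable (hA : A * A = (a - 1) • A + a • (1 : M)) (hB : B * B = (b - 1) • B + b • (1 : M))
  (hbr : alt 8 A B = alt 8 B A) (ha : 1 < a) (hb : 1 < b)

/-- the element `ε` -/
theorem exists_eps (hA : A * A = (a - 1) • A + a • (1 : M)) (hB : B * B = (b - 1) • B + b • (1 : M))
    (hbr : alt 8 A B = alt 8 B A) (ha : 1 < a) (hb : 1 < b) : ∃ α β : ℝ[X],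
      α * pp a b + β * ff a b = 1 ∧
      aeval (zc A B a b) (α * pp a b) + aeval (zc A B a b) β * (Yc A B * Yc A B) = 1 ∧
      aeval (zc A B a b) (α * pp a b) * Yc A B = 0 := by
  obtain ⟨α, β, h⟩ := coprime_pf ha hb
  refine ⟨α, β, h, ?_, ?_⟩
  · have h1 := congrArg (aeval (zc A B a b)) h
    rw [map_add, map_one, map_mul _ β] at h1
    rw [Y_sq hA hB]
    have h2 : aeval (zc A B a b) (ff a b) =
        (zc A B a b - (1 + a * b) • (1 : M)) * (zc A B a b + (a + b) • (1 : M)) := by
      unfold ff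
      rw [map_mul, map_sub, map_sub, aeval_X, aeval_C, aeval_C, Algebra.algebraMap_eq_smul_one,
        Algebra.algebraMap_eq_smul_one]
      congr 1
      module
    rw [← h2]
    exact h1
  · have h1 := p_Y hA hB hbr
    have h2 : aeval (zc A B a b) (pp a b) =
        zc A B a b * zc A B a b * zc A B a b - (2 * (a * b)) • zc A B a b := by
      unfold pp
      rw [map_mul, map_sub, map_pow, aeval_X, aeval_C, Algebra.algebraMap_eq_smul_one, mul_sub, mul_smul_comm, mul_one,
        pow_two, mul_assoc]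
    rw [map_mul, mul_assoc, h2, h1, mul_zero]

theorem eps_sq {α β : ℝ[X]} (hA : A * A = (a - 1) • A + a • (1 : M)) (hB : B * B = (b - 1) • B + b • (1 : M))
    (h1 : aeval (zc A B a b) (α * pp a b) + aeval (zc A B a b) β * (Yc A B * Yc A B) = 1)
    (h2 : aeval (zc A B a b) (α * pp a b) * Yc A B = 0) :
    aeval (zc A B a b) (α * pp a b) * aeval (zc A B a b) (α * pp a b) = aeval (zc A B a b) (α * pp a b) := by
  set ε := aeval (zc A B a b) (α * pp a b) with hε
  have h3 : ε * (ε + aeval (zc A B a b) β * (Yc A B * Yc A B)) = ε := by rw [h1, mul_one]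
  rw [mul_add] at h3
  have h4 : ε * (aeval (zc A B a b) β * (Yc A B * Yc A B)) = 0 := by
    have h5 : ε * aeval (zc A B a b) β = aeval (zc A B a b) β * ε := by
      rw [hε, ← map_mul, ← map_mul, mul_comm]
    rw [← mul_assoc, h5, mul_assoc, ← mul_assoc ε, h2, zero_mul, mul_zero]
  rw [h4, add_zero] at h3
  exact h3

/-- the idempotent -/
theorem eig_of {ε : M} (hεA : A * ε = ε * A) (hεB : B * ε = ε * B) (hεY : ε * Yc A B = 0) (hεε : ε * ε = ε)
    {α α' β β' : ℝ} (hA : A * A = (α + α') • A - (α * α') • (1 : M)) (hB : B * B = (β + β') • B - (β * β') • (1 : M))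
    (hα : α - α' ≠ 0) (hβ : β - β' ≠ 0) :
    Eig A B (((α - α') * (β - β'))⁻¹ • ((A - α' • (1 : M)) * (B - β' • (1 : M)) * ε)) α β := by
  set k := ((α - α') * (β - β'))⁻¹ with hk
  set x := (A - α' • (1 : M)) * (B - β' • (1 : M)) * ε with hx
  have hY : A * B * ε = B * A * ε := by
    have h1 : ε * (A * B) = ε * (B * A) := by
      unfold Yc at hεY
      rwa [mul_sub, sub_eq_zero] at hεY
    have h2 : A * B * ε = ε * (A * B) := by rw [mul_assoc, hεB, ← mul_assoc, hεA, mul_assoc]
    have h3 : B * A * ε = ε * (B * A) := by rw [mul_assoc, hεA, ← mul_assoc, hεB, mul_assoc]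
    rw [h2, h3, h1]
  have hx' : x = (B - β' • (1 : M)) * (A - α' • (1 : M)) * ε := by
    rw [hx]
    have h1 : ∀ u v : ℝ, (A - u • (1 : M)) * (B - v • (1 : M)) * ε =
        A * B * ε - v • (A * ε) - u • (B * ε) + (u * v) • ε := by
      intro u v
      simp only [sub_mul, mul_sub, smul_mul_assoc, mul_smul_comm, mul_one, one_mul]
      module
    have h2 : ∀ u v : ℝ, (B - v • (1 : M)) * (A - u • (1 : M)) * ε =
        B * A * ε - v • (A * ε) - u • (B * ε) + (u * v) • ε := by
      intro u v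
      simp only [sub_mul, mul_sub, smul_mul_assoc, mul_smul_comm, mul_one, one_mul]
      module
    rw [h1, h2, hY]
  have rA : A * (A - α' • (1 : M)) = α • (A - α' • (1 : M)) := by
    simp only [mul_sub, hA, mul_smul_comm, mul_one]
    module
  have rB : B * (B - β' • (1 : M)) = β • (B - β' • (1 : M)) := by
    simp only [mul_sub, hB, mul_smul_comm, mul_one]
    module
  have rA' : (A - α' • (1 : M)) * A = α • (A - α' • (1 : M)) := by
    simp only [sub_mul, hA, smul_mul_assoc, one_mul]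
    module
  have rB' : (B - β' • (1 : M)) * B = β • (B - β' • (1 : M)) := by
    simp only [sub_mul, hB, smul_mul_assoc, one_mul]
    module
  have xA : A * x = α • x := by
    rw [hx, ← mul_assoc, ← mul_assoc, rA, smul_mul_assoc, smul_mul_assoc]
  have xB : B * x = β • x := by
    rw [hx', ← mul_assoc, ← mul_assoc, rB, smul_mul_assoc, smul_mul_assoc]
  have xB' : x * B = β • x := by
    rw [hx, mul_assoc, ← hεB, ← mul_assoc, mul_assoc (A - α' • (1 : M)), rB', mul_smul_comm, smul_mul_assoc]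
  have xA' : x * A = α • x := by
    rw [hx', mul_assoc, ← hεA, ← mul_assoc, mul_assoc (B - β' • (1 : M)), rA', mul_smul_comm, smul_mul_assoc]
  refine ⟨by rw [mul_smul_comm, xA, smul_comm], by rw [mul_smul_comm, xB, smul_comm],
    by rw [smul_mul_assoc, xA', smul_comm], by rw [smul_mul_assoc, xB', smul_comm], ?_⟩
  have xx : x * x = ((α - α') * (β - β')) • x := by
    have h1 : x * (A - α' • (1 : M)) = (α - α') • x := by
      rw [mul_sub, xA', mul_smul_comm, mul_one, sub_smul]
    have h2 : x * (B - β' • (1 : M)) = (β - β') • x := by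
      rw [mul_sub, xB', mul_smul_comm, mul_one, sub_smul]
    have h3 : x * ε = x := by
      rw [hx, mul_assoc, hεε]
    calc x * x = x * (A - α' • (1 : M)) * (B - β' • (1 : M)) * ε := by
          nth_rw 2 [hx]
          simp only [mul_assoc]
      _ = _ := by
          rw [h1, smul_mul_assoc, h2, smul_mul_assoc, smul_mul_assoc, h3, smul_smul]
  rw [smul_mul_smul_comm, xx, smul_smul]
  congr 1
  rw [hk]
  have : (α - α') * (β - β') ≠ 0 := mul_ne_zero hα hβ
  field_simp

/-- the idempotents fix the eigenvectors -/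
theorem eps_mul {p : ℝ[X]} {x : M} {u : ℝ} (hx : zc A B a b * x = u • x) :
    aeval (zc A B a b) p * x = p.eval u • x := by
  induction p using Polynomial.induction_on' with
  | add p q hp hq => rw [map_add, add_mul, hp, hq, eval_add, add_smul]
  | monomial n r =>
    rw [aeval_monomial, Algebra.algebraMap_eq_smul_one, smul_mul_assoc, one_mul, smul_mul_assoc, eval_monomial,
      mul_smul]
    congr 1
    induction n with
    | zero => simp
    | succ n ih => rw [pow_succ, mul_assoc, hx, mul_smul_comm, ih, smul_smul, pow_succ, mul_comm]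

theorem zc_mul {x : M} {α β : ℝ} (h1 : A * x = α • x) (h2 : B * x = β • x) :
    zc A B a b * x = (2 * (α * β) - (a - 1) * β - (b - 1) * α + (a - 1) * (b - 1)) • x := by
  unfold zc
  simp only [add_mul, sub_mul, smul_mul_assoc, one_mul, mul_assoc, h1, h2, mul_smul_comm]
  module

/-- **the four idempotents** -/
theorem exists_idem (hA : A * A = (a - 1) • A + a • (1 : M)) (hB : B * B = (b - 1) • B + b • (1 : M))
    (hbr : alt 8 A B = alt 8 B A) (ha : 1 < a) (hb : 1 < b) : ∃ e₁ e₂ e₃ e₄ W : M,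
      Eig A B e₁ a b ∧ Eig A B e₂ a (-1) ∧ Eig A B e₃ (-1) b ∧ Eig A B e₄ (-1) (-1) ∧
      (1 + a)⁻¹ • ((2 : ℝ) • A + (1 - a) • (1 : M)) = e₁ + e₂ - e₃ - e₄ +
        ((2 : ℝ) • A + (1 - a) • (1 : M)) * Yc A B * (Yc A B * W) ∧
      W * A = A * W ∧ W * B = B * W ∧
      (∃ p : ℝ[X], W = aeval (zc A B a b) p) ∧
      (∀ x : M, A * x = a • x → B * x = (-1 : ℝ) • x → e₂ * x = x) ∧
      (∀ x : M, A * x = (-1 : ℝ) • x → B * x = b • x → e₃ * x = x) := by
  obtain ⟨α, β, h0, h1, h2⟩ := exists_eps hA hB hbr ha hb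
  have h3 := eps_sq hA hB h1 h2
  have hzA := zc_A (B := B) (b := b) hA
  have hzB := zc_B (A := A) (a := a) hB
  have hεA := comm_aeval hzA (α * pp a b)
  have hεB := comm_aeval hzB (α * pp a b)
  have hβA := comm_aeval hzA β
  have hβB := comm_aeval hzB β
  have hev : ∀ u : ℝ, (ff a b).eval u = 0 → (α * pp a b).eval u = 1 := by
    intro u hu
    have h4 := congrArg (Polynomial.eval u) h0
    rw [eval_add, eval_mul (p := β), hu, mul_zero, add_zero, eval_one] at h4
    exact h4
  have hff : ∀ u : ℝ, (ff a b).eval u = (u - (1 + a * b)) * (u + (a + b)) := by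
    intro u
    unfold ff
    rw [eval_mul, eval_sub, eval_sub, eval_X, eval_C, eval_C, sub_neg_eq_add]
  have hfix : ∀ (x : M) (u v : ℝ), A * x = u • x → B * x = v • x → (ff a b).eval
      (2 * (u * v) - (a - 1) * v - (b - 1) * u + (a - 1) * (b - 1)) = 0 →
      aeval (zc A B a b) (α * pp a b) * x = x := by
    intro x u v hu hv h4
    rw [eps_mul (zc_mul hu hv), hev _ h4, one_smul]
  set ε := aeval (zc A B a b) (α * pp a b) with hε
  have hAp : A * A = (a + -1) • A - (a * -1) • (1 : M) := by rw [hA]; module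
  have hAm : A * A = (-1 + a) • A - (-1 * a) • (1 : M) := by rw [hA]; module
  have hBp : B * B = (b + -1) • B - (b * -1) • (1 : M) := by rw [hB]; module
  have hBm : B * B = (-1 + b) • B - (-1 * b) • (1 : M) := by rw [hB]; module
  have n1 : a - -1 ≠ 0 := by
    have : 0 < a - -1 := by linarith
    exact this.ne'
  have n2 : -1 - a ≠ 0 := by
    have : -1 - a < 0 := by linarith
    exact this.ne
  have n3 : b - -1 ≠ 0 := by
    have : 0 < b - -1 := by linarith
    exact this.ne'
  have n4 : -1 - b ≠ 0 := by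
    have : -1 - b < 0 := by linarith
    exact this.ne
  have E1 := eig_of hεA hεB h2 h3 hAp hBp n1 n3
  have E2 := eig_of hεA hεB h2 h3 hAp hBm n1 n4
  have E3 := eig_of hεA hεB h2 h3 hAm hBp n2 n3
  have E4 := eig_of hεA hεB h2 h3 hAm hBm n2 n4
  have n5 : 1 + a ≠ 0 := by
    have : 0 < 1 + a := by linarith
    exact this.ne'
  have n6 : 1 + b ≠ 0 := by
    have : 0 < 1 + b := by linarith
    exact this.ne'
  refine ⟨_, _, _, _, (1 + a)⁻¹ • aeval (zc A B a b) β, E1, E2, E3, E4, ?_, ?_, ?_, ?_, ?_, ?_⟩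
  · set R : M := (2 : ℝ) • A + (1 - a) • (1 : M) with hR
    have h5 : (1 + a)⁻¹ • R = (1 + a)⁻¹ • (R * ε) + (1 + a)⁻¹ • (R * (aeval (zc A B a b) β * (Yc A B * Yc A B))) := by
      rw [← smul_add, ← mul_add, h1, mul_one]
    have h6 : aeval (zc A B a b) β * Yc A B = Yc A B * aeval (zc A B a b) β := by
      unfold Yc
      rw [mul_sub, sub_mul]
      congr 1
      · rw [← mul_assoc, ← hβA, mul_assoc, ← hβB, mul_assoc]
      · rw [← mul_assoc, ← hβB, mul_assoc, ← hβA, mul_assoc]
    have h7 : (1 + a)⁻¹ • (R * (aeval (zc A B a b) β * (Yc A B * Yc A B))) =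
        R * Yc A B * (Yc A B * ((1 + a)⁻¹ • aeval (zc A B a b) β)) := by
      rw [mul_smul_comm, mul_smul_comm]
      congr 1
      rw [← mul_assoc (aeval (zc A B a b) β), h6, mul_assoc, mul_assoc, h6]
    rw [h5, h7]
    congr 1
    have h8 : ∀ u v : ℝ, (A - u • (1 : M)) * (B - v • (1 : M)) * ε =
        A * B * ε - v • (A * ε) - u • (B * ε) + (u * v) • ε := by
      intro u v
      simp only [sub_mul, mul_sub, smul_mul_assoc, mul_smul_comm, mul_one, one_mul]
      module
    rw [h8, h8, h8, h8, hR, add_mul, smul_mul_assoc, smul_mul_assoc, one_mul]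
    have n7 : a + 1 ≠ 0 := by rwa [add_comm] at n5
    have n8 : b + 1 ≠ 0 := by rwa [add_comm] at n6
    have i1 : ((a - -1) * (b - -1))⁻¹ = ((a + 1) * (b + 1))⁻¹ := by ring_nf
    have i2 : ((a - -1) * (-1 - b))⁻¹ = -((a + 1) * (b + 1))⁻¹ := by
      rw [← inv_neg]; ring_nf
    have i3 : ((-1 - a) * (b - -1))⁻¹ = -((a + 1) * (b + 1))⁻¹ := by
      rw [← inv_neg]; ring_nf
    have i4 : ((-1 - a) * (-1 - b))⁻¹ = ((a + 1) * (b + 1))⁻¹ := by ring_nf
    rw [i1, i2, i3, i4]
    match_scalars <;> (field_simp; try ring)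
  · rw [smul_mul_assoc, mul_smul_comm, hβA]
  · rw [smul_mul_assoc, mul_smul_comm, hβB]
  · exact ⟨(1 + a)⁻¹ • β, by rw [map_smul]⟩
  · intro x hx1 hx2
    have h9 := hfix x a (-1) hx1 hx2 (by rw [hff]; ring)
    rw [smul_mul_assoc, mul_assoc, h9, mul_assoc, sub_mul B, hx2, smul_mul_assoc, one_mul]
    have e1 : (-1 : ℝ) • x - b • x = (-1 - b) • x := by module
    have e2 : (A - (-1 : ℝ) • (1 : M)) * x = (a - -1) • x := by
      rw [sub_mul, hx1, smul_mul_assoc, one_mul]; module
    rw [e1, mul_smul_comm, e2, smul_smul, smul_smul]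
    have : ((a - -1) * (-1 - b))⁻¹ * (-1 - b) * (a - -1) = 1 := by field_simp
    rw [this, one_smul]
  · intro x hx1 hx2
    have h9 := hfix x (-1) b hx1 hx2 (by rw [hff]; ring)
    rw [smul_mul_assoc, mul_assoc, h9, mul_assoc, sub_mul B, hx2, smul_mul_assoc, one_mul]
    have e1 : b • x - (-1 : ℝ) • x = (b - -1) • x := by module
    have e2 : (A - a • (1 : M)) * x = (-1 - a) • x := by
      rw [sub_mul, hx1, smul_mul_assoc, one_mul]; module
    rw [e1, mul_smul_comm, e2, smul_smul, smul_smul]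
    have : ((-1 - a) * (b - -1))⁻¹ * (b - -1) * (-1 - a) = 1 := by field_simp
    rw [this, one_smul]

end Cfsg.Agent.H315.TF8
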