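import Cfsg.Agent.H315.TF8.Idem
import Cfsg.Agent.H315.HT.Mixed
import Cfsg.Agent.H978.BR.StSplit

/-!
# S2452, `²F₄(8)` : the principal series at a regular element of a minimal parabolic subgroup (helper315)

`prin` : for an irreducible character `χ` with `2 [χ, 1]_P - [χ, 1]_B ≠ 0` (`P = P_s`): `χ = 1`, `χ = S` (one fixed
character) or `r ∣ χ(1)`, if `r` divides the degrees of the two mixed linear characters of the Hecke algebra.
-/

set_option autoImplicit false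
set_option linter.unusedSectionVars false

namespace Cfsg.Agent.H315.TF8

open Cfsg Cfsg.Agent.LieRecognition.FeitHigmanGroup Cfsg.Agent.LieExceptional.BNPairCore
open Cfsg.Agent.H740.Eight.Hecke Cfsg.Agent.H740.Eight.HeckeDeg Cfsg.Agent.H315.HT
open Cfsg.Agent.Characters.Core

universe u

section alg

variable {M : Type*} [Ring M] [Algebra ℝ M] {A B : M} {a b c : ℝ}

theorem zz_mul {x : M} (h1 : A * x = a • x) (h2 : B * x = (-1 : ℝ) • x) (hb : b ≠ 0) (hc : b * c = -1) :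
    zz A B c * x = kap a b • x := by
  have h := alt_zz h1 h2
  have hc' : c = - b⁻¹ := by field_simp; linarith
  rw [zz_eq]
  simp only [add_mul, smul_mul_assoc, one_mul, (h 1).1, (h 1).2, (h 2).1, (h 2).2, (h 3).1, (h 3).2, (h 4).1,
    (h 4).2, (h 5).1, (h 5).2, (h 6).1, (h 6).2, (h 7).1, (h 7).2, (h 8).1, Nat.reduceAdd, Nat.reduceDiv]
  rw [kap, hc']
  match_scalars
  ring

end alg

section tau

variable {G : Type u} [Group G] {X : Type*} [MulAction G X] [Fintype X] [DecidableEq X]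

/-- the class function of an invariant matrix -/
def tau (h : Matrix X X ℝ) (g : G) : ℝ := ∑ x, h x (g • x)

theorem tau_add (h k : Matrix X X ℝ) (g : G) : tau (h + k) g = tau h g + tau k g := by
  unfold tau
  rw [← Finset.sum_add_distrib]
  rfl

theorem tau_sub (h k : Matrix X X ℝ) (g : G) : tau (h - k) g = tau h g - tau k g := by
  unfold tau
  rw [← Finset.sum_sub_distrib]
  rfl

theorem tau_neg (h : Matrix X X ℝ) (g : G) : tau (-h) g = - tau h g := by
  unfold tau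
  rw [← Finset.sum_neg_distrib]
  rfl

/-- trace property -/
theorem tau_comm {h : Matrix X X ℝ} (hh : Inv G h) (k : Matrix X X ℝ) (g : G) : tau (h * k) g = tau (k * h) g := by
  unfold tau
  have e1 : ∀ x, (k * h) x (g • x) = ∑ y, k x (g • y) * h y x := by
    intro x
    rw [Matrix.mul_apply]
    refine (Fintype.sum_equiv (MulAction.toPerm g) _ _ fun y => ?_).symm
    show k x (g • y) * h y x = k x (g • y) * h (g • y) (g • x)
    rw [hh]
  have e2 : ∀ x, (h * k) x (g • x) = ∑ y, k y (g • x) * h x y := by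
    intro x
    rw [Matrix.mul_apply]
    exact Fintype.sum_congr _ _ fun y => mul_comm _ _
  rw [Fintype.sum_congr _ _ e1, Fintype.sum_congr _ _ e2, Finset.sum_comm]

/-- the algebra of the invariant matrices -/
def IA (G : Type u) [Group G] (X : Type*) [MulAction G X] [Fintype X] [DecidableEq X] : Subalgebra ℝ (Matrix X X ℝ) where
  carrier := {M | Inv G M}
  mul_mem' := fun ha hb => Inv.mul ha hb
  add_mem' := fun ha hb => Inv.add ha hb
  algebraMap_mem' := fun r => by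
    show Inv G (algebraMap ℝ (Matrix X X ℝ) r)
    rw [Algebra.algebraMap_eq_smul_one]
    exact Inv.smul r Inv.one

theorem alt_coe (x y : IA G X) : ∀ k : ℕ, ((alt k x y : IA G X) : Matrix X X ℝ) = alt k (x : Matrix X X ℝ) y ∧
    ((alt k y x : IA G X) : Matrix X X ℝ) = alt k (y : Matrix X X ℝ) x := by
  intro k
  induction k with
  | zero => exact ⟨rfl, rfl⟩
  | succ k ih =>
    constructor
    · rw [alt_succ, alt_succ, ← ih.2]; rfl
    · rw [alt_succ, alt_succ, ← ih.1]; rfl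

end tau

section bn

variable {G : Type u} [Group G] {P : BNPair G} [Finite G] [Fintype (G ⧸ P.B)] [DecidableEq (G ⧸ P.B)] {s t : G}

/-- an idempotent with a linear character is primitive -/
theorem prim_of (hS : P.S = {s, t}) {e : Matrix (G ⧸ P.B) (G ⧸ P.B) ℝ} {α β : ℝ} (h1 : T P s * e = α • e)
    (h2 : T P t * e = β • e) (hee : e * e = e) {M : Matrix (G ⧸ P.B) (G ⧸ P.B) ℂ} (hM : Inv G M) :
    ∃ c : ℂ, e.map Complex.ofReal * M * e.map Complex.ofReal = c • e.map Complex.ofReal := by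
  have hcor : ∀ w : G, ∃ c : ℝ, e * T P w * e = c • e := by
    intro w
    have h4 : T P w * e ∈ Submodule.span ℝ {e} := by
      refine T_mul_mem hS _ ?_ ?_ w (Submodule.mem_span_singleton_self e)
      · intro x hx
        obtain ⟨c, rfl⟩ := Submodule.mem_span_singleton.1 hx
        rw [mul_smul_comm, h1]
        exact Submodule.smul_mem _ _ (Submodule.smul_mem _ _ (Submodule.mem_span_singleton_self _))
      · intro x hx
        obtain ⟨c, rfl⟩ := Submodule.mem_span_singleton.1 hx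
        rw [mul_smul_comm, h2]
        exact Submodule.smul_mem _ _ (Submodule.smul_mem _ _ (Submodule.mem_span_singleton_self _))
    obtain ⟨c, hc⟩ := Submodule.mem_span_singleton.1 h4
    exact ⟨c, by rw [mul_assoc, ← hc, mul_smul_comm, hee]⟩
  refine Submodule.span_induction (p := fun M _ => ∃ c : ℂ, e.map Complex.ofReal * M * e.map Complex.ofReal =
    c • e.map Complex.ofReal) ?_ ?_ ?_ ?_ (mem_span hM)
  · rintro _ ⟨w, rfl⟩
    obtain ⟨c, hc⟩ := hcor w
    refine ⟨c, ?_⟩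
    show e.map Complex.ofReal * (T P w).map Complex.ofReal * e.map Complex.ofReal = _
    rw [← map_mul', ← map_mul', hc]
    ext x y
    simp
  · exact ⟨0, by simp⟩
  · rintro A B _ _ ⟨a, ha⟩ ⟨b, hb⟩
    exact ⟨a + b, by rw [mul_add, add_mul, ha, hb, add_smul]⟩
  · rintro a A _ ⟨b, hb⟩
    exact ⟨a * b, by rw [mul_smul_comm, smul_mul_assoc, hb, smul_smul]⟩

/-- the character of such an idempotent: zero or irreducible -/
theorem tau_irr (hS : P.S = {s, t}) {e : Matrix (G ⧸ P.B) (G ⧸ P.B) ℝ} (hinv : Inv G e) {α β : ℝ}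
    (h1 : T P s * e = α • e) (h2 : T P t * e = β • e) (hee : e * e = e) :
    (∀ g : G, tau e g = 0) ∨ IsIrrCharacter G (fun g : G => ((tau e g : ℝ) : ℂ)) := by
  by_cases h0 : e = 0
  · left
    intro g
    unfold tau
    rw [h0]
    simp
  · right
    have h3 : IsIrrCharacter G (fun g : G => ∑ x, (e.map Complex.ofReal) x (g • x)) := by
      refine idem_char (Inv.map _ hinv) ?_ ?_ fun M hM => prim_of hS h1 h2 hee hM
      · rw [← map_mul', hee]
      · intro h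
        apply h0
        ext x y
        have := congrFun (congrFun h x) y
        rw [Matrix.map_apply, Matrix.zero_apply] at this
        exact_mod_cast this
    have e3 : (fun g : G => ((tau e g : ℝ) : ℂ)) = fun g : G => ∑ x, (e.map Complex.ofReal) x (g • x) := by
      funext g
      unfold tau
      rw [Complex.ofReal_sum]
      rfl
    rw [e3]
    exact h3

/-- the matrix of `1 - St` on the panels of type `s` -/
noncomputable def Dm (P : BNPair G) [Fintype (G ⧸ P.B)] [DecidableEq (G ⧸ P.B)] (s : G) :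
    Matrix (G ⧸ P.B) (G ⧸ P.B) ℝ :=
  (1 + (q P s : ℝ))⁻¹ • ((2 : ℝ) • T P s + (1 - (q P s : ℝ)) • 1)

/-- **the class function of `Dm` is a combination of four irreducible characters** -/
theorem tau_Dm (hS : P.S = {s, t}) (hst : s ≠ t) (h16 : ((P.B ⊓ P.N).subgroupOf P.N).index = 16) :
    ∃ e₁ e₄ : Matrix (G ⧸ P.B) (G ⧸ P.B) ℝ,
      ((∀ g : G, tau e₁ g = 0) ∨ IsIrrCharacter G (fun g : G => ((tau e₁ g : ℝ) : ℂ))) ∧
      ((∀ g : G, tau e₄ g = 0) ∨ IsIrrCharacter G (fun g : G => ((tau e₄ g : ℝ) : ℂ))) ∧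
      ∀ g : G, ((tau (Dm P s) g : ℝ) : ℂ) = tau e₁ g + ∑ x, eC P s t x (g • x) - ∑ x, eC P t s x (g • x) - tau e₄ g := by
  have hs : s ∈ P.S := by rw [hS]; simp
  have ht : t ∈ P.S := by rw [hS]; simp
  have hS' : P.S = {t, s} := by rw [hS]; exact Set.pair_comm _ _
  have hs2 := two_le_q (P := P) hs
  have ht2 := two_le_q (P := P) ht
  set a : ℝ := (q P s : ℝ) with ha
  set b : ℝ := (q P t : ℝ) with hb
  have ha1 : 1 < a := by rw [ha]; exact_mod_cast (by omega : 1 < q P s)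
  have hb1 : 1 < b := by rw [hb]; exact_mod_cast (by omega : 1 < q P t)
  have ha0 : a ≠ 0 := by
    have : 0 < a := by linarith
    exact this.ne'
  have hb0 : b ≠ 0 := by
    have : 0 < b := by linarith
    exact this.ne'
  have hbr : alt 8 (T P s) (T P t) = alt 8 (T P t) (T P s) := (hecke_data hS hst (n := 8) (by rw [h16])).1
  let A : IA G (G ⧸ P.B) := ⟨T P s, inv_T (P := P) s⟩
  let B : IA G (G ⧸ P.B) := ⟨T P t, inv_T (P := P) t⟩
  have hA : A * A = (a - 1) • A + a • (1 : IA G (G ⧸ P.B)) := Subtype.ext (T_sq hs)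
  have hB : B * B = (b - 1) • B + b • (1 : IA G (G ⧸ P.B)) := Subtype.ext (T_sq ht)
  have hbr' : alt 8 A B = alt 8 B A := by
    apply Subtype.ext
    rw [(alt_coe A B 8).1, (alt_coe A B 8).2]
    exact hbr
  obtain ⟨e₁, e₂, e₃, e₄, W, E1, E2, E3, E4, hsum, hWA, hWB, -, h2, h3⟩ := exists_idem hA hB hbr' ha1 hb1
  have cA : ∀ {x : IA G (G ⧸ P.B)} {α : ℝ}, A * x = α • x → T P s * (x : Matrix (G ⧸ P.B) (G ⧸ P.B) ℝ) =
      α • (x : Matrix (G ⧸ P.B) (G ⧸ P.B) ℝ) := fun h => congrArg Subtype.val h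
  have cB : ∀ {x : IA G (G ⧸ P.B)} {α : ℝ}, B * x = α • x → T P t * (x : Matrix (G ⧸ P.B) (G ⧸ P.B) ℝ) =
      α • (x : Matrix (G ⧸ P.B) (G ⧸ P.B) ℝ) := fun h => congrArg Subtype.val h
  have cs : ∀ {x : IA G (G ⧸ P.B)}, x * x = x → (x : Matrix (G ⧸ P.B) (G ⧸ P.B) ℝ) * (x : Matrix (G ⧸ P.B) (G ⧸ P.B) ℝ) =
      x := fun h => congrArg Subtype.val h
  refine ⟨e₁, e₄, tau_irr hS e₁.2 (cA E1.hA) (cB E1.hB) (cs E1.sq), tau_irr hS e₄.2 (cA E4.hA) (cB E4.hB) (cs E4.sq), ?_⟩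
  intro g
  -- the commutator part
  have hR0 : ((2 : ℝ) • A + (1 - a) • (1 : IA G (G ⧸ P.B))) * Yc A B =
      - (Yc A B * ((2 : ℝ) • A + (1 - a) • (1 : IA G (G ⧸ P.B)))) := anti hA
  set R : IA G (G ⧸ P.B) := (2 : ℝ) • A + (1 - a) • (1 : IA G (G ⧸ P.B)) with hR
  have hWR : W * R = R * W := by
    rw [hR, mul_add, add_mul, mul_smul_comm, smul_mul_assoc, mul_smul_comm, smul_mul_assoc, hWA, mul_one, one_mul]
  have hWY : W * Yc A B = Yc A B * W := by
    unfold Yc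
    rw [mul_sub, sub_mul, ← mul_assoc, hWA, mul_assoc, hWB, ← mul_assoc, ← mul_assoc W, hWB, mul_assoc B W, hWA,
      ← mul_assoc B]
  have hzero : tau ((R * Yc A B * (Yc A B * W) : IA G (G ⧸ P.B)) : Matrix (G ⧸ P.B) (G ⧸ P.B) ℝ) g = 0 := by
    have e1 : Yc A B * W * (R * Yc A B) = -(R * Yc A B * (Yc A B * W)) := by
      calc Yc A B * W * (R * Yc A B) = Yc A B * (W * R) * Yc A B := by simp only [mul_assoc]
        _ = Yc A B * R * (W * Yc A B) := by rw [hWR]; simp only [mul_assoc]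
        _ = Yc A B * R * (Yc A B * W) := by rw [hWY]
        _ = _ := by
          have hR1 : R * Yc A B * (Yc A B * W) + Yc A B * R * (Yc A B * W) = 0 := by
            rw [← add_mul, hR0, neg_add_cancel, zero_mul]
          exact (neg_eq_of_add_eq_zero_right hR1).symm
    have e2 := tau_comm (G := G) (R * Yc A B : IA G (G ⧸ P.B)).2 ((Yc A B * W : IA G (G ⧸ P.B)) :
      Matrix (G ⧸ P.B) (G ⧸ P.B) ℝ) g
    have e3 : (((R * Yc A B * (Yc A B * W) : IA G (G ⧸ P.B))) : Matrix (G ⧸ P.B) (G ⧸ P.B) ℝ) =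
        ((R * Yc A B : IA G (G ⧸ P.B)) : Matrix (G ⧸ P.B) (G ⧸ P.B) ℝ) *
          ((Yc A B * W : IA G (G ⧸ P.B)) : Matrix (G ⧸ P.B) (G ⧸ P.B) ℝ) := rfl
    have e4 : ((Yc A B * W : IA G (G ⧸ P.B)) : Matrix (G ⧸ P.B) (G ⧸ P.B) ℝ) *
        ((R * Yc A B : IA G (G ⧸ P.B)) : Matrix (G ⧸ P.B) (G ⧸ P.B) ℝ) =
        -(((R * Yc A B * (Yc A B * W) : IA G (G ⧸ P.B))) : Matrix (G ⧸ P.B) (G ⧸ P.B) ℝ) := congrArg Subtype.val e1
    rw [← e3, e4, tau_neg] at e2
    linarith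
  have hD : (Dm P s) = ((e₁ : IA G (G ⧸ P.B)) : Matrix (G ⧸ P.B) (G ⧸ P.B) ℝ) + e₂ - e₃ - e₄ +
      ((R * Yc A B * (Yc A B * W) : IA G (G ⧸ P.B)) : Matrix (G ⧸ P.B) (G ⧸ P.B) ℝ) := congrArg Subtype.val hsum
  -- the mixed idempotents
  have mix : ∀ {x : Matrix (G ⧸ P.B) (G ⧸ P.B) ℝ} {y : Matrix (G ⧸ P.B) (G ⧸ P.B) ℝ}, Inv G x →
      x * y = y → y * x = x → tau x g = tau y g := by
    intro x y hx h4 h5
    rw [← h4, tau_comm hx, h5]
  have m2 : tau (e₂ : Matrix (G ⧸ P.B) (G ⧸ P.B) ℝ) g = tau ((kap a b)⁻¹ • zz (T P s) (T P t) (-b⁻¹)) g := by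
    have hk : kap a b ≠ 0 := (kap_q hS hst h16).ne'
    obtain ⟨h5, h6, -⟩ := z_props hS hst h16
    have hz : Inv G (zz (T P s) (T P t) (-b⁻¹)) := inv_zz (inv_T (P := P) s) (inv_T (P := P) t) _
    let z' : IA G (G ⧸ P.B) := ⟨(kap a b)⁻¹ • zz (T P s) (T P t) (-b⁻¹), Inv.smul _ hz⟩
    have h7 : e₂ * z' = z' := by
      refine h2 z' (Subtype.ext ?_) (Subtype.ext ?_)
      · show T P s * ((kap a b)⁻¹ • zz (T P s) (T P t) (-b⁻¹)) = a • ((kap a b)⁻¹ • zz (T P s) (T P t) (-b⁻¹))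
        rw [mul_smul_comm, h5, smul_comm]
      · show T P t * ((kap a b)⁻¹ • zz (T P s) (T P t) (-b⁻¹)) = (-1 : ℝ) • ((kap a b)⁻¹ • zz (T P s) (T P t) (-b⁻¹))
        rw [mul_smul_comm, h6, smul_comm]
    refine mix e₂.2 (congrArg Subtype.val h7) ?_
    rw [smul_mul_assoc, zz_mul (cA E2.hA) (cB E2.hB) hb0 (by field_simp), smul_smul, inv_mul_cancel₀ hk, one_smul]
  have m3 : tau (e₃ : Matrix (G ⧸ P.B) (G ⧸ P.B) ℝ) g = tau ((kap b a)⁻¹ • zz (T P t) (T P s) (-a⁻¹)) g := by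
    have hk : kap b a ≠ 0 := (kap_q hS' hst.symm h16).ne'
    obtain ⟨h5, h6, -⟩ := z_props hS' hst.symm h16
    have hz : Inv G (zz (T P t) (T P s) (-a⁻¹)) := inv_zz (inv_T (P := P) t) (inv_T (P := P) s) _
    let z' : IA G (G ⧸ P.B) := ⟨(kap b a)⁻¹ • zz (T P t) (T P s) (-a⁻¹), Inv.smul _ hz⟩
    have h7 : e₃ * z' = z' := by
      refine h3 z' (Subtype.ext ?_) (Subtype.ext ?_)
      · show T P s * ((kap b a)⁻¹ • zz (T P t) (T P s) (-a⁻¹)) = (-1 : ℝ) • ((kap b a)⁻¹ • zz (T P t) (T P s) (-a⁻¹))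
        rw [mul_smul_comm, h6, smul_comm]
      · show T P t * ((kap b a)⁻¹ • zz (T P t) (T P s) (-a⁻¹)) = b • ((kap b a)⁻¹ • zz (T P t) (T P s) (-a⁻¹))
        rw [mul_smul_comm, h5, smul_comm]
    refine mix e₃.2 (congrArg Subtype.val h7) ?_
    rw [smul_mul_assoc, zz_mul (cB E3.hB) (cA E3.hA) ha0 (by field_simp), smul_smul, inv_mul_cancel₀ hk, one_smul]
  have c2 : ∑ x, eC P s t x (g • x) = ((tau ((kap a b)⁻¹ • zz (T P s) (T P t) (-b⁻¹)) g : ℝ) : ℂ) := by
    unfold tau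
    rw [Complex.ofReal_sum]
    rfl
  have c3 : ∑ x, eC P t s x (g • x) = ((tau ((kap b a)⁻¹ • zz (T P t) (T P s) (-a⁻¹)) g : ℝ) : ℂ) := by
    unfold tau
    rw [Complex.ofReal_sum]
    rfl
  rw [hD, tau_add, hzero, add_zero, tau_sub, tau_sub, tau_add, c2, c3, m2, m3]
  push_cast
  ring

theorem tau_sum [Fintype G] {c : G → ℂ} (hc : IsClassFunction G c) (hs : s ∈ P.S)
    (hPi : Nat.card (P.parabolic {s}) = (1 + q P s) * Nat.card P.B) [Fintype P.B] [Fintype (P.parabolic {s})] :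
    (Nat.card G : ℂ)⁻¹ * ∑ g : G, ((tau (Dm P s) g : ℝ) : ℂ) * c g =
      2 * ((Nat.card (P.parabolic {s}) : ℂ)⁻¹ * ∑ g : P.parabolic {s}, c g) -
        (Nat.card P.B : ℂ)⁻¹ * ∑ g : P.B, c g := by
  classical
  have hinv : Inv G ((Dm P s).map Complex.ofReal) :=
    Inv.map _ (Inv.smul _ (Inv.add (Inv.smul _ (inv_T (P := P) s)) (Inv.smul _ Inv.one)))
  have h1 := sum_inv_mul hinv hc
  have h2 : ∀ g : G, ((tau (Dm P s) g : ℝ) : ℂ) = ∑ x, ((Dm P s).map Complex.ofReal) x (g • x) := by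
    intro g
    unfold tau
    rw [Complex.ofReal_sum]
    rfl
  simp only [h2]
  rw [h1]
  set a : ℝ := (q P s : ℝ) with ha
  have ha1 : (1 + a : ℝ) ≠ 0 := by positivity
  have ha1' : (1 + a : ℂ) ≠ 0 := by exact_mod_cast ha1
  have hmkC : ∀ g : G, R P s ((1 : G) : G ⧸ P.B) (g • ((1 : G) : G ⧸ P.B)) ↔ g ∈ C P s := by
    intro g
    have e : g • ((1 : G) : G ⧸ P.B) = ((g : G) : G ⧸ P.B) := by
      show ((g * 1 : G) : G ⧸ P.B) = _
      rw [mul_one]
    rw [e, R_mk_iff, inv_one, one_mul]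
  have hmkB : ∀ g : G, ((1 : G) : G ⧸ P.B) = g • ((1 : G) : G ⧸ P.B) ↔ g ∈ P.B := by
    intro g
    have e : g • ((1 : G) : G ⧸ P.B) = ((g : G) : G ⧸ P.B) := by
      show ((g * 1 : G) : G ⧸ P.B) = _
      rw [mul_one]
    rw [e, QuotientGroup.eq, inv_one, one_mul]
  have hpar : ∀ g : G, g ∈ P.parabolic {s} ↔ g ∈ P.B ∨ g ∈ C P s := by
    intro g
    constructor
    · exact Cfsg.Agent.H978.BR.mem_par hs
    · rintro (h | h)
      · exact (le_sup_left : P.B ≤ P.parabolic {s}) h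
      · exact mem_of_mem_C' (P := P) le_sup_left h
          ((le_sup_right : Subgroup.closure {s} ≤ _) (Subgroup.subset_closure rfl))
  have hdis : ∀ g : G, g ∈ P.B → g ∉ C P s := by
    intro g hB hz
    have h4 := C_eq_of_mem hz
    have h5 := C_eq_of_mem ((mem_C_one (P := P)).2 hB)
    have h6 := self_mem_C (P := P) s
    rw [← h4, h5, mem_C_one] at h6
    exact not_mem_B hs h6
  have h3 : ∀ g : G, ((Dm P s).map Complex.ofReal) ((1 : G) : G ⧸ P.B) (g • ((1 : G) : G ⧸ P.B)) =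
      (1 + a : ℂ)⁻¹ * (2 * (if g ∈ P.parabolic {s} then 1 else 0) - (1 + a) * (if g ∈ P.B then 1 else 0)) := by
    intro g
    rw [Matrix.map_apply]
    unfold Dm
    rw [← ha, Matrix.smul_apply, Matrix.add_apply, Matrix.smul_apply, Matrix.smul_apply, T_apply, Matrix.one_apply]
    simp only [hmkC, hmkB, hpar]
    by_cases h4 : g ∈ P.B
    · simp only [h4, hdis g h4, if_true, if_false, true_or, smul_eq_mul]
      push_cast
      ring
    · by_cases h5 : g ∈ C P s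
      · simp only [h4, h5, if_true, if_false, or_true, smul_eq_mul]
        push_cast
        ring
      · simp only [h4, h5, if_false, or_self, smul_eq_mul]
        push_cast
        ring
  have hsumH : ∀ (H : Subgroup G) [Fintype H], ∑ g : G, (if g ∈ H then (1 : ℂ) else 0) * c g = ∑ g : H, c g := by
    intro H _
    have e1 : ∀ g : G, (if g ∈ H then (1 : ℂ) else 0) * c g = if g ∈ H then c g else 0 := by
      intro g
      split_ifs <;> simp
    rw [Fintype.sum_congr _ _ e1, ← Finset.sum_filter]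
    refine (Finset.sum_subtype _ (fun x => ?_) _)
    simp
  have h4 : ∑ g : G, ((Dm P s).map Complex.ofReal) ((1 : G) : G ⧸ P.B) (g • ((1 : G) : G ⧸ P.B)) * c g =
      (1 + a : ℂ)⁻¹ * (2 * ∑ g : P.parabolic {s}, c g - (1 + a) * ∑ g : P.B, c g) := by
    rw [← hsumH, ← hsumH, Finset.mul_sum, Finset.mul_sum, ← Finset.sum_sub_distrib, Finset.mul_sum]
    refine Fintype.sum_congr _ _ fun g => ?_
    rw [h3]
    ring
  have h5 : (QuotientGroup.mk 1 : G ⧸ P.B) = ((1 : G) : G ⧸ P.B) := rfl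
  rw [h5, h4]
  have h6 : (Nat.card G : ℂ) = Nat.card P.B * Nat.card (G ⧸ P.B) := by
    rw [← Subgroup.index_eq_card]
    exact_mod_cast (P.B.card_mul_index).symm
  have hB0 : (Nat.card P.B : ℂ) ≠ 0 := by exact_mod_cast Nat.card_pos.ne'
  have hX0 : (Nat.card (G ⧸ P.B) : ℂ) ≠ 0 := by exact_mod_cast Nat.card_pos.ne'
  rw [h6, hPi]
  push_cast
  rw [← Complex.ofReal_natCast (q P s), ← ha]
  field_simp

/-- **the principal series** -/
theorem prin [Fintype G] [Fintype P.B] [Fintype (P.parabolic {s})] (hS : P.S = {s, t}) (hst : s ≠ t)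
    (h16 : ((P.B ⊓ P.N).subgroupOf P.N).index = 16)
    (hPi : Nat.card (P.parabolic {s}) = (1 + q P s) * Nat.card P.B) {r : ℕ} (hr : r.Prime) {d₁ d₂ : ℕ}
    (hd1 : (kap (q P s) (q P t))⁻¹ * Nat.card (G ⧸ P.B) = d₁) (hd2 : (kap (q P t) (q P s))⁻¹ * Nat.card (G ⧸ P.B) = d₂)
    (h1 : r ∣ d₁) (h2 : r ∣ d₂) : ∃ S : IrrCharacter G, ∀ χ : IrrCharacter G,
      2 * ((Nat.card (P.parabolic {s}) : ℂ)⁻¹ * ∑ g : P.parabolic {s}, (χ : G → ℂ) g) -
        (Nat.card P.B : ℂ)⁻¹ * ∑ g : P.B, (χ : G → ℂ) g ≠ 0 →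
      (χ : G → ℂ) = (fun _ => 1) ∨ χ = S ∨ r ∣ charDegree (χ : G → ℂ) := by
  classical
  have hs : s ∈ P.S := by rw [hS]; simp
  have hS' : P.S = {t, s} := by rw [hS]; exact Set.pair_comm _ _
  obtain ⟨e₁, e₄, E1, E4, hD⟩ := tau_Dm hS hst h16
  have f2 : IsIrrCharacter G (fun g => ∑ x, eC P s t x (g • x)) :=
    psiA hS hst h16 (inv_T s) (inv_T t) fun g => ⟨g, fun _ => rfl⟩
  have f3 : IsIrrCharacter G (fun g => ∑ x, eC P t s x (g • x)) :=
    psiA hS' hst.symm h16 (inv_T t) (inv_T s) fun g => ⟨g, fun _ => rfl⟩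
  have g2 : charDegree (fun g : G => ∑ x, eC P s t x (g • x)) = d₁ := by
    have h1 := psi_one hS hst h16 (A := G)
    rw [hd1] at h1
    show ⌊(∑ x, eC P s t x ((1 : G) • x)).re⌋₊ = d₁
    rw [h1]
    simp
  have g3 : charDegree (fun g : G => ∑ x, eC P t s x (g • x)) = d₂ := by
    have h1 := psi_one hS' hst.symm h16 (A := G)
    rw [hd2] at h1
    show ⌊(∑ x, eC P t s x ((1 : G) • x)).re⌋₊ = d₂
    rw [h1]
    simp
  have key : ∀ χ : IrrCharacter G,
      2 * ((Nat.card (P.parabolic {s}) : ℂ)⁻¹ * ∑ g : P.parabolic {s}, (χ : G → ℂ) g) -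
        (Nat.card P.B : ℂ)⁻¹ * ∑ g : P.B, (χ : G → ℂ) g ≠ 0 →
      (IsIrrCharacter G (fun g : G => ((tau e₁ g : ℝ) : ℂ)) ∧ (χ : G → ℂ) = fun g : G => ((tau e₁ g : ℝ) : ℂ)) ∨
      (IsIrrCharacter G (fun g : G => ((tau e₄ g : ℝ) : ℂ)) ∧ (χ : G → ℂ) = fun g : G => ((tau e₄ g : ℝ) : ℂ)) ∨
      r ∣ charDegree (χ : G → ℂ) := by
    intro χ hχ
    rw [← tau_sum (isIrr_isClassFunction χ.2) hs hPi] at hχ
    have hcl : classInner (χ : G → ℂ) (fun g : G => ((tau (Dm P s) g : ℝ) : ℂ)) ≠ 0 := by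
      rw [classInner_def]
      simp only [Complex.conj_ofReal]
      intro h
      apply hχ
      rw [← h]
      congr 1
      exact Fintype.sum_congr _ _ fun g => mul_comm _ _
    have hfun : (fun g : G => ((tau (Dm P s) g : ℝ) : ℂ)) = (fun g : G => ((tau e₁ g : ℝ) : ℂ)) +
        (fun g : G => ∑ x, eC P s t x (g • x)) - (fun g : G => ∑ x, eC P t s x (g • x)) -
        (fun g : G => ((tau e₄ g : ℝ) : ℂ)) := by
      funext g
      rw [hD]
      rfl
    rw [hfun, classInner_sub_right, classInner_sub_right, classInner_add_right] at hcl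
    by_cases c2 : (χ : G → ℂ) = fun g => ∑ x, eC P s t x (g • x)
    · right; right
      rw [c2, g2]
      exact h1
    by_cases c3 : (χ : G → ℂ) = fun g => ∑ x, eC P t s x (g • x)
    · right; right
      rw [c3, g3]
      exact h2
    rw [classInner_irr_ne χ.2 f2 c2, classInner_irr_ne χ.2 f3 c3, add_zero, sub_zero] at hcl
    have hz : ∀ e : Matrix (G ⧸ P.B) (G ⧸ P.B) ℝ, (∀ g : G, tau e g = 0) →
        classInner (χ : G → ℂ) (fun g : G => ((tau e g : ℝ) : ℂ)) = 0 := by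
      intro e he
      rw [classInner_def]
      simp [he]
    rcases E1 with E1 | E1
    · rcases E4 with E4 | E4
      · rw [hz _ E1, hz _ E4, sub_zero] at hcl
        exact (hcl rfl).elim
      · right; left
        refine ⟨E4, ?_⟩
        by_contra hne
        rw [hz _ E1, classInner_irr_ne χ.2 E4 hne, sub_zero] at hcl
        exact hcl rfl
    · by_cases c1 : (χ : G → ℂ) = fun g : G => ((tau e₁ g : ℝ) : ℂ)
      · exact Or.inl ⟨E1, c1⟩
      · rcases E4 with E4 | E4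
        · rw [hz _ E4, classInner_irr_ne χ.2 E1 c1, sub_zero] at hcl
          exact (hcl rfl).elim
        · right; left
          refine ⟨E4, ?_⟩
          by_contra hne
          rw [classInner_irr_ne χ.2 E1 c1, classInner_irr_ne χ.2 E4 hne, sub_zero] at hcl
          exact hcl rfl
  let one : IrrCharacter G := ⟨fun _ => 1, Cfsg.Agent.Blocks.Basic.isIrrCharacter_one⟩
  have hone : 2 * ((Nat.card (P.parabolic {s}) : ℂ)⁻¹ * ∑ g : P.parabolic {s}, (one : G → ℂ) g) -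
        (Nat.card P.B : ℂ)⁻¹ * ∑ g : P.B, (one : G → ℂ) g ≠ 0 := by
    have e1 : ∀ (H : Subgroup G) [Fintype H], (Nat.card H : ℂ)⁻¹ * ∑ g : H, (one : G → ℂ) g = 1 := by
      intro H _
      have e2 : ∑ g : H, (one : G → ℂ) g = (Nat.card H : ℂ) := by
        show ∑ g : H, (1 : ℂ) = _
        rw [Finset.sum_const, nsmul_eq_mul, mul_one, Finset.card_univ, Nat.card_eq_fintype_card]
      rw [e2]
      exact inv_mul_cancel₀ (by exact_mod_cast Nat.card_pos.ne')
    rw [e1, e1]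
    norm_num
  rcases key one hone with ⟨I1, h3⟩ | ⟨I4, h3⟩ | h3
  · by_cases I4 : IsIrrCharacter G (fun g : G => ((tau e₄ g : ℝ) : ℂ))
    · refine ⟨⟨_, I4⟩, fun χ hχ => ?_⟩
      rcases key χ hχ with ⟨-, h⟩ | ⟨-, h⟩ | h
      · exact Or.inl (h.trans h3.symm)
      · exact Or.inr (Or.inl (Subtype.ext h))
      · exact Or.inr (Or.inr h)
    · refine ⟨one, fun χ hχ => ?_⟩
      rcases key χ hχ with ⟨-, h⟩ | ⟨I, -⟩ | h
      · exact Or.inl (h.trans h3.symm)
      · exact (I4 I).elim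
      · exact Or.inr (Or.inr h)
  · by_cases I1 : IsIrrCharacter G (fun g : G => ((tau e₁ g : ℝ) : ℂ))
    · refine ⟨⟨_, I1⟩, fun χ hχ => ?_⟩
      rcases key χ hχ with ⟨-, h⟩ | ⟨-, h⟩ | h
      · exact Or.inr (Or.inl (Subtype.ext h))
      · exact Or.inl (h.trans h3.symm)
      · exact Or.inr (Or.inr h)
    · refine ⟨one, fun χ hχ => ?_⟩
      rcases key χ hχ with ⟨I, -⟩ | ⟨-, h⟩ | h
      · exact (I1 I).elim
      · exact Or.inl (h.trans h3.symm)
      · exact Or.inr (Or.inr h)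
  · exfalso
    have h4 : charDegree (one : G → ℂ) = 1 := by
      show charDegree (fun _ : G => (1 : ℂ)) = 1
      simp [charDegree]
    rw [h4] at h3
    exact hr.one_lt.ne' (Nat.dvd_one.1 h3)

end bn

end Cfsg.Agent.H315.TF8
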